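import Mathlib

/-!
The exponent of 3 in factorials, and the degrees with few ternary parts.
-/

set_option autoImplicit false

namespace CfsgLib.AltSylowThree

/-- The exponent of `3` in `n!`. -/
def vFac (n : ℕ) : ℕ := padicValNat 3 n.factorial

theorem vFac_three_mul (m : ℕ) : vFac (3 * m) = vFac m + m :=
  haveI : Fact (Nat.Prime 3) := ⟨Nat.prime_three⟩
  padicValNat_factorial_mul m

theorem vFac_div (n : ℕ) : vFac n = vFac (n / 3) + n / 3 := by
  haveI : Fact (Nat.Prime 3) := ⟨Nat.prime_three⟩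
  conv_lhs => rw [← Nat.div_add_mod n 3]
  rw [← vFac_three_mul]
  exact padicValNat_factorial_mul_add _ (Nat.mod_lt n (by norm_num))

theorem vFac_pow_add : ∀ s y : ℕ, y < 2 * 3 ^ s → vFac (3 ^ s + y) = vFac (3 ^ s) + vFac y := by
  intro s
  induction s with
  | zero =>
    intro y hy
    rw [vFac_div (3 ^ 0 + y), vFac_div (3 ^ 0), vFac_div y]
    simp only [pow_zero] at hy ⊢
    interval_cases y <;> simp [vFac]
  | succ s ih =>
    intro y hy
    rw [pow_succ'] at hy ⊢
    rw [vFac_div (3 * 3 ^ s + y), vFac_three_mul, vFac_div y,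
      show (3 * 3 ^ s + y) / 3 = 3 ^ s + y / 3 by omega, ih (y / 3) (by omega)]
    omega

/-- The degree is a power of three, a sum of two, or splits in three parts without carry. -/
theorem shape (n : ℕ) (hn : 5 ≤ n) :
    (∃ t, n = 3 ^ t) ∨ (∃ t s, s ≤ t ∧ n = 3 ^ t + 3 ^ s) ∨
      ∃ a b c, 0 < a ∧ 0 < b ∧ 3 ≤ c ∧ n = a + b + c ∧ vFac n = vFac a + vFac b + vFac c := by
  have decomp : ∀ k : ℕ, 0 < k → ∃ t y, k = 3 ^ t + y ∧ y < 2 * 3 ^ t := by
    intro k hk
    refine ⟨Nat.log 3 k, k - 3 ^ Nat.log 3 k, ?_, ?_⟩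
    · have := Nat.pow_log_le_self 3 hk.ne'
      omega
    · have := Nat.lt_pow_succ_log_self (b := 3) (by norm_num) k
      rw [pow_succ'] at this
      omega
  obtain ⟨t, y, rfl, hy⟩ := decomp n (by omega)
  rcases Nat.eq_zero_or_pos y with rfl | hy0
  · exact Or.inl ⟨t, by simp⟩
  obtain ⟨s, z, rfl, hz⟩ := decomp y hy0
  have hst : s ≤ t := by
    by_contra hc
    have : 3 ^ (t + 1) ≤ 3 ^ s := Nat.pow_le_pow_right (by norm_num) (by omega)
    rw [pow_succ'] at this
    omega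
  rcases Nat.eq_zero_or_pos z with rfl | hz0
  · exact Or.inr (Or.inl ⟨t, s, hst, by simp⟩)
  refine Or.inr (Or.inr ⟨3 ^ s, z, 3 ^ t, by positivity, hz0, ?_, by ring, ?_⟩)
  · rcases Nat.eq_zero_or_pos t with rfl | ht
    · simp at hy hn
      omega
    · calc 3 = 3 ^ 1 := by norm_num
        _ ≤ 3 ^ t := Nat.pow_le_pow_right (by norm_num) ht
  · rw [vFac_pow_add t _ hy, vFac_pow_add s _ hz]
    ring

end CfsgLib.AltSylowThree
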