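import Mathlib
import Cfsg.Agent.ThreeCycleClasses.Basic
import Cfsg.Agent.AltSylowThree.Arith
import Cfsg.Agent.AltSylowTwo.UniqueMax

/-!
Sylow 3-subgroups of alternating groups inside two proper subgroups that generate the whole group.
-/

set_option autoImplicit false

namespace CfsgLib.AltSylowThree

open Equiv Equiv.Perm CfsgLib.ThreeCycleClasses

variable {α : Type*} {ι : Type*}

/-- The permutations preserving the partition into fibres of `f`. -/
def pres (f : α → ι) : Subgroup (Perm α) where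
  carrier := {g | ∀ x y, f (g x) = f (g y) ↔ f x = f y}
  one_mem' := fun _ _ => Iff.rfl
  mul_mem' := fun {g h} hg hh x y => by rw [Perm.mul_apply, Perm.mul_apply, hg, hh]
  inv_mem' := fun {g} hg x y => by
    have := hg (g⁻¹ x) (g⁻¹ y)
    simpa [Iff.comm] using this

theorem mem_pres {f : α → ι} {g : Perm α} : g ∈ pres f ↔ ∀ x y, f (g x) = f (g y) ↔ f x = f y :=
  Iff.rfl

theorem mem_pres_of_forall {f : α → ι} {g : Perm α} (h : ∀ x, f (g x) = f x) : g ∈ pres f := fun x y => by
  rw [h x, h y]

variable [Fintype α] [DecidableEq α]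

theorem tc_mem_pres {f : α → ι} {x y z : α} (hy : f x = f y) (hz : f x = f z) :
    tc x y z ∈ pres f := by
  refine mem_pres_of_forall fun w => ?_
  simp only [tc, Perm.mul_apply, swap_apply_def]
  split_ifs <;> subst_vars <;> simp_all

theorem pres_ne_top {f : α → ι} {x y z : α} (hxy : x ≠ y) (hf : f x = f y) (hz : f x ≠ f z) :
    (pres f).subgroupOf (alternatingGroup α) ≠ ⊤ := by
  intro h
  have hxz : x ≠ z := fun e => hz (congrArg f e)
  have hyz : y ≠ z := fun e => hz (hf.trans (congrArg f e))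
  have hA : tc x y z ∈ alternatingGroup α := by
    rw [mem_alternatingGroup, tc, map_mul, sign_swap hxy, sign_swap hyz]
    rfl
  have hm : (⟨tc x y z, hA⟩ : alternatingGroup α) ∈ (pres f).subgroupOf (alternatingGroup α) :=
    h ▸ Subgroup.mem_top _
  obtain ⟨h1, h2, -⟩ := tc_apply hxy hxz hyz
  have := (mem_pres.1 (Subgroup.mem_subgroupOf.1 hm) x y).2 hf
  rw [h1, h2] at this
  exact hz (hf.trans this)

/-- `G` is the alternating group on `n` points and the subgroups `pres f₁`, `pres f₂` share a Sylow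
3-subgroup and generate it: then some Sylow 3-subgroup is in two maximal subgroups. -/
theorem not_uniq {G : Type*} [Group G] [Finite G] (φ : G ≃* ↥(alternatingGroup α))
    {κ : Type*} (f₁ : α → ι) (f₂ : α → κ) (Q : Subgroup (Perm α))
    (hα : 2 ≤ Fintype.card α)
    (hQcard : Nat.card Q = 3 ^ vFac (Fintype.card α)) (hQ1 : Q ≤ pres f₁) (hQ2 : Q ≤ pres f₂)
    (h1 : (pres f₁).subgroupOf (alternatingGroup α) ≠ ⊤)
    (h2 : (pres f₂).subgroupOf (alternatingGroup α) ≠ ⊤)
    (hrel : ∀ a b : α, Rel
      (((pres f₁).subgroupOf (alternatingGroup α) ⊔ (pres f₂).subgroupOf (alternatingGroup α)).map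
        (alternatingGroup α).subtype) a b) :
    ∃ T : Sylow 3 G, ¬ ∃! M : Subgroup G, IsCoatom M ∧ (T : Subgroup G) ≤ M := by
  haveI : Fact (Nat.Prime 3) := ⟨Nat.prime_three⟩
  haveI : Nontrivial α := Fintype.one_lt_card_iff_nontrivial.1 (by omega)
  set A := alternatingGroup α with hA
  have hQA : Q ≤ A := by
    intro g hg
    have h3 : orderOf g ∣ 3 ^ vFac (Fintype.card α) := hQcard ▸ Q.orderOf_dvd_natCard hg
    have hs : Perm.sign g ^ (3 ^ vFac (Fintype.card α)) = 1 := by
      rw [← map_pow, orderOf_dvd_iff_pow_eq_one.1 h3, map_one]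
    have hodd : Odd (3 ^ vFac (Fintype.card α)) := Odd.pow (by decide)
    rw [hA, mem_alternatingGroup]
    rcases Int.units_eq_one_or (Perm.sign g) with h | h
    · exact h
    · rw [h, hodd.neg_one_pow] at hs
      exact absurd hs (by decide)
  have hcard : Nat.card ↥(Q.subgroupOf A) = 3 ^ (Nat.card ↥A).factorization 3 := by
    rw [Nat.card_congr (Subgroup.subgroupOfEquivOfLe hQA).toEquiv, hQcard]
    congr 1
    have hm : 2 * Nat.card ↥A = (Fintype.card α).factorial := by
      rw [hA, two_mul_nat_card_alternatingGroup, Nat.card_perm, Nat.card_eq_fintype_card]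
    rw [vFac, ← Nat.factorization_def _ Nat.prime_three, ← hm,
      Nat.factorization_mul (by norm_num) (Nat.card_pos).ne', Finsupp.add_apply,
      Nat.factorization_eq_zero_of_not_dvd (show ¬ 3 ∣ 2 by norm_num), zero_add]
  let T₀ : Sylow 3 ↥A := Sylow.ofCard (Q.subgroupOf A) hcard
  have hnu : ¬ CfsgLib.AltSylowTwo.Uniq (Q.subgroupOf A) := by
    refine CfsgLib.AltSylowTwo.not_uniq h1 h2 (fun x hx => hQ1 hx) (fun x hx => hQ2 hx) ?_
    set J := (pres f₁).subgroupOf A ⊔ (pres f₂).subgroupOf A
    rw [eq_top_iff]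
    intro x _
    have hle : A ≤ J.map A.subtype := by
      refine closure_three_cycles_eq_alternating.ge.trans ((Subgroup.closure_le _).2 ?_)
      intro s hs
      obtain ⟨a, ha⟩ : s.support.Nonempty := by
        rw [← Finset.card_pos, hs.card_support]; norm_num
      have hn := hs.nodup_iff_mem_support.2 ha
      simp only [List.nodup_cons, List.mem_cons, List.not_mem_nil, or_false, not_or] at hn
      rw [SetLike.mem_coe, (hs.eq_swap_mul_swap_iff_mem_support).2 ha]
      exact (Rel.tri (hrel a (s a)) (hrel a (s (s a))) hn.1.1 hn.1.2 hn.2.1).2.2.2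
    obtain ⟨y, hy, hxy⟩ := hle x.2
    rwa [Subtype.ext hxy] at hy
  have hc : Nat.card ↥((Q.subgroupOf A).map φ.symm.toMonoidHom) = 3 ^ (Nat.card G).factorization 3 := by
    rw [Subgroup.card_map_of_injective φ.symm.injective, hcard, Nat.card_congr φ.toEquiv]
  refine ⟨Sylow.ofCard _ hc, ?_⟩
  exact fun h => hnu ((CfsgLib.AltSylowTwo.uniq_map φ.symm _).1 h)

/-- Two points in one fibre are related, when the fibre has a third point. -/
theorem rel_of_fibre {f : α → ι} {H : Subgroup (Perm α)}
    (hH : ∀ g ∈ pres f, g ∈ alternatingGroup α → g ∈ H) {a b c : α} (hab : a ≠ b) (hac : a ≠ c)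
    (hbc : b ≠ c) (h1 : f a = f b) (h2 : f a = f c) : Rel H a b := by
  refine Or.inr ⟨c, hab, hac, hbc, hH _ (tc_mem_pres h1 h2) ?_⟩
  rw [mem_alternatingGroup, tc, map_mul, sign_swap hab, sign_swap hbc]
  rfl

end CfsgLib.AltSylowThree
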