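import Mathlib
import Cfsg.Agent.AltSylowThree.Criterion

/-!
Models of Sylow 3-subgroups of symmetric groups.
-/

set_option autoImplicit false

namespace CfsgLib.AltSylowThree

open Equiv Equiv.Perm CfsgLib.ThreeCycleClasses

theorem exists_sum_sylow (α β : Type*) [Fintype α] [Fintype β] :
    ∃ Q : Subgroup (Perm (α ⊕ β)),
      Nat.card Q = 3 ^ (vFac (Fintype.card α) + vFac (Fintype.card β)) ∧
      ∀ g ∈ Q, ∀ x, (g x).isLeft = x.isLeft := by
  classical
  haveI : Fact (Nat.Prime 3) := ⟨Nat.prime_three⟩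
  obtain ⟨P⟩ : Nonempty (Sylow 3 (Perm α)) := inferInstance
  obtain ⟨P'⟩ : Nonempty (Sylow 3 (Perm β)) := inferInstance
  refine ⟨((P : Subgroup (Perm α)).prod (P' : Subgroup (Perm β))).map (sumCongrHom α β), ?_, ?_⟩
  · rw [Subgroup.card_map_of_injective sumCongrHom_injective,
      Nat.card_congr (Subgroup.prodEquiv _ _).toEquiv, Nat.card_prod, P.card_eq_multiplicity,
      P'.card_eq_multiplicity, Nat.card_perm, Nat.card_perm, Nat.card_eq_fintype_card,
      Nat.card_eq_fintype_card, Nat.factorization_def _ Nat.prime_three,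
      Nat.factorization_def _ Nat.prime_three, pow_add]
    rfl
  · rintro _ ⟨⟨u, v⟩, -, rfl⟩ (x | x) <;> rfl

theorem exists_sum_sylow_three (α β γ : Type*) [Fintype α] [Fintype β] [Fintype γ] :
    ∃ Q : Subgroup (Perm (α ⊕ β ⊕ γ)),
      Nat.card Q = 3 ^ (vFac (Fintype.card α) + vFac (Fintype.card β) + vFac (Fintype.card γ)) ∧
      ∀ g ∈ Q, ∀ x, (g x).isLeft = x.isLeft ∧
        Sum.elim (fun _ => false) Sum.isLeft (g x) = Sum.elim (fun _ => false) Sum.isLeft x := by
  classical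
  haveI : Fact (Nat.Prime 3) := ⟨Nat.prime_three⟩
  obtain ⟨P⟩ : Nonempty (Sylow 3 (Perm α)) := inferInstance
  obtain ⟨R, hR, hR'⟩ := exists_sum_sylow β γ
  refine ⟨((P : Subgroup (Perm α)).prod R).map (sumCongrHom α (β ⊕ γ)), ?_, ?_⟩
  · rw [Subgroup.card_map_of_injective sumCongrHom_injective,
      Nat.card_congr (Subgroup.prodEquiv _ _).toEquiv, Nat.card_prod, P.card_eq_multiplicity,
      Nat.card_perm, Nat.card_eq_fintype_card, Nat.factorization_def _ Nat.prime_three, hR,
      ← pow_add, ← add_assoc]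
    rfl
  · rintro _ ⟨⟨u, v⟩, ⟨-, hv⟩, rfl⟩ (x | x)
    · exact ⟨rfl, rfl⟩
    · exact ⟨rfl, hR' v hv x⟩

variable {β : Type*}

/-- The permutation moving the triples by `π` and rotating them by `v`. -/
def mk3 (π : Perm β) (v : β → ZMod 3) : Perm (β × ZMod 3) :=
  Equiv.prodShear π fun i => Equiv.addLeft (v i)

@[simp] theorem mk3_apply (π : Perm β) (v : β → ZMod 3) (i : β) (z : ZMod 3) :
    mk3 π v (i, z) = (π i, v i + z) := rfl

/-- The triples moved by `R`, with all rotations. -/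
def wreath (R : Subgroup (Perm β)) : Subgroup (Perm (β × ZMod 3)) where
  carrier := {g | ∃ π ∈ R, ∃ v, g = mk3 π v}
  one_mem' := ⟨1, R.one_mem, 0, by ext ⟨i, z⟩ <;> simp⟩
  mul_mem' := by
    rintro _ _ ⟨π, hπ, v, rfl⟩ ⟨π', hπ', v', rfl⟩
    exact ⟨π * π', R.mul_mem hπ hπ', fun i => v (π' i) + v' i, by ext ⟨i, z⟩ <;> simp [add_assoc]⟩
  inv_mem' := by
    rintro _ ⟨π, hπ, v, rfl⟩
    refine ⟨π⁻¹, R.inv_mem hπ, fun i => -v (π⁻¹ i), inv_eq_of_mul_eq_one_right ?_⟩
    ext ⟨i, z⟩ <;> simp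

theorem card_wreath [Fintype β] (R : Subgroup (Perm β)) :
    Nat.card ↥(wreath R) = Nat.card R * 3 ^ Fintype.card β := by
  classical
  have e : Function.Bijective (fun x : R × (β → ZMod 3) =>
      (⟨mk3 x.1 x.2, x.1, x.1.2, x.2, rfl⟩ : wreath R)) := by
    constructor
    · rintro ⟨⟨π, hπ⟩, v⟩ ⟨⟨π', hπ'⟩, v'⟩ h
      have h' : ∀ i, π i = π' i ∧ v i = v' i := fun i => by
        simpa using DFunLike.congr_fun (congrArg Subtype.val h) (i, 0)
      have h1 : π = π' := Equiv.ext fun i => (h' i).1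
      subst h1
      exact Prod.ext rfl (funext fun i => (h' i).2)
    · rintro ⟨_, π, hπ, v, rfl⟩
      exact ⟨(⟨π, hπ⟩, v), rfl⟩
  rw [← Nat.card_congr (Equiv.ofBijective _ e), Nat.card_prod, Nat.card_fun,
    Nat.card_zmod, Nat.card_eq_fintype_card (α := β)]

theorem fst_apply {R : Subgroup (Perm β)} {g : Perm (β × ZMod 3)} (hg : g ∈ wreath R) :
    ∃ π ∈ R, ∀ x, (g x).1 = π x.1 := by
  obtain ⟨π, hπ, v, rfl⟩ := hg
  exact ⟨π, hπ, fun ⟨i, z⟩ => rfl⟩

/-- Triples partitioned by colour. -/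
theorem not_uniq_triples {G : Type*} [Group G] [Finite G] [Fintype β] [DecidableEq β] {ι : Type*}
    (φ : G ≃* ↥(alternatingGroup (β × ZMod 3))) (c : β → ι) (R : Subgroup (Perm β))
    (hRc : R ≤ pres c) (hRcard : Nat.card R = 3 ^ vFac (Fintype.card β))
    (i i' j : β) (hii : i ≠ i') (hc : c i = c i') (hj : c i ≠ c j) :
    ∃ T : Sylow 3 G, ¬ ∃! M : Subgroup G, IsCoatom M ∧ (T : Subgroup G) ≤ M := by
  classical
  obtain ⟨z01, z02, z12, hz3⟩ : (0 : ZMod 3) ≠ 1 ∧ (0 : ZMod 3) ≠ 2 ∧ (1 : ZMod 3) ≠ 2 ∧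
      ∀ z : ZMod 3, z = 0 ∨ z = 1 ∨ z = 2 := by decide
  have hcard : Fintype.card (β × ZMod 3) = 3 * Fintype.card β := by
    rw [Fintype.card_prod, ZMod.card, mul_comm]
  have hpos : 0 < Fintype.card β := Fintype.card_pos_iff.2 ⟨i⟩
  refine not_uniq φ (fun x => c x.1) (fun x => x.1) (wreath R) (by omega) ?_ ?_ ?_
    (pres_ne_top (x := (i, 0)) (y := (i, 1)) (z := (j, 0)) (by simp [z01]) rfl hj)
    (pres_ne_top (x := (i, 0)) (y := (i, 1)) (z := (j, 0)) (by simp [z01]) rfl
      fun e => hj (congrArg c e)) ?_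
  · rw [card_wreath, hRcard, hcard, vFac_three_mul, pow_add]
  · intro g hg x y
    obtain ⟨π, hπ, h⟩ := fst_apply hg
    simp only [h]
    exact hRc hπ _ _
  · intro g hg x y
    obtain ⟨π, -, h⟩ := fst_apply hg
    simp only [h]
    exact π.injective.eq_iff
  set A := alternatingGroup (β × ZMod 3) with hA
  set J := (pres fun x : β × ZMod 3 => c x.1).subgroupOf A ⊔
    (pres fun x : β × ZMod 3 => x.1).subgroupOf A
  have hH1 : ∀ g ∈ pres (fun x : β × ZMod 3 => c x.1), g ∈ A → g ∈ J.map A.subtype :=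
    fun g hg hgA => ⟨⟨g, hgA⟩, Subgroup.mem_sup_left hg, rfl⟩
  have hH2 : ∀ g ∈ pres (fun x : β × ZMod 3 => x.1), g ∈ A → g ∈ J.map A.subtype :=
    fun g hg hgA => ⟨⟨g, hgA⟩, Subgroup.mem_sup_right hg, rfl⟩
  have hsame : ∀ (k : β) (a : ZMod 3), Rel (J.map A.subtype) (k, 0) (k, a) := by
    intro k a
    rcases eq_or_ne a 0 with rfl | ha
    · exact Rel.refl _
    obtain ⟨b, hb1, hb2⟩ : ∃ b : ZMod 3, b ≠ 0 ∧ b ≠ a := by
      rcases eq_or_ne a 1 with rfl | h1
      · exact ⟨2, z02.symm, z12.symm⟩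
      · exact ⟨1, z01.symm, h1.symm⟩
    exact rel_of_fibre hH1 (c := (k, b)) (by simpa using ha.symm) (by simpa using hb1.symm)
      (by simpa using hb2.symm) rfl rfl
  have hcol : ∀ (k l : β), c k = c l → ∀ a b, Rel (J.map A.subtype) (k, a) (l, b) := by
    intro k l hkl a b
    refine (hsame k a).symm.trans (Rel.trans ?_ (hsame l b))
    rcases eq_or_ne k l with rfl | hne
    · exact Rel.refl _
    · exact rel_of_fibre hH1 (c := (k, 1)) (by simp [hne]) (by simp [z01]) (by simp [hne.symm])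
        (show c k = c l from hkl) rfl
  have hall : ∀ (k : β) (a : ZMod 3), Rel (J.map A.subtype) (i', 0) (k, a) := by
    intro k a
    by_cases hk : c k = c i
    · exact hcol i' k (hc.symm.trans hk.symm) 0 a
    have hki : k ≠ i := fun e => hk (congrArg c e)
    have hki' : k ≠ i' := fun e => hk ((congrArg c e).trans hc.symm)
    let g : Perm (β × ZMod 3) :=
      swap (i, 0) (k, 0) * swap (i, 1) (k, 1) * swap (i, 2) (k, 2) * swap (k, 0) (k, 1)
    have hgA : g ∈ A := by
      rw [hA, mem_alternatingGroup]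
      simp only [g, map_mul]
      rw [sign_swap (by simp [hki.symm]), sign_swap (by simp [hki.symm]),
        sign_swap (by simp [hki.symm]), sign_swap (by simp [z01])]
      rfl
    have hg2 : g ∈ pres (fun x : β × ZMod 3 => x.1) := by
      have hfst : ∀ x : β × ZMod 3, (g x).1 = swap i k x.1 := by
        rintro ⟨l, z⟩
        have hz := hz3 z
        simp only [g, Perm.mul_apply]
        rcases eq_or_ne l k with rfl | hlk
        · rcases hz with rfl | rfl | rfl <;>
            simp [swap_apply_def, hki, z01, z02, z12, z01.symm, z02.symm, z12.symm]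
        · rcases eq_or_ne l i with rfl | hli
          · rcases hz with rfl | rfl | rfl <;>
              simp [swap_apply_def, hlk, z01, z02, z12, z01.symm, z02.symm, z12.symm]
          · simp [swap_apply_def, hlk, hli]
      intro x y
      simp only [hfst]
      exact (swap i k).injective.eq_iff
    have hH := hH2 g hg2 hgA
    have h := Rel.map hH (hcol i' i hc.symm 0 0)
    have e1 : g (i', 0) = (i', 0) := by
      simp [g, Perm.mul_apply, swap_apply_def, hii.symm, hki'.symm]
    have e2 : g (i, 0) = (k, 0) := by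
      simp [g, Perm.mul_apply, swap_apply_def, hki.symm, z01, z02]
    rw [e1, e2] at h
    exact h.trans (hsame k a)
  exact fun a b => (hall a.1 a.2).symm.trans (hall b.1 b.2)

theorem card_pow_three (k : ℕ) : 1 ≤ 3 ^ k := Nat.one_le_pow _ _ (by norm_num)

/-- The degrees with a unique maximal overgroup of a Sylow 3-subgroup. -/
theorem degree {G : Type*} [Group G] [Finite G] (n : ℕ) (hn : 5 ≤ n)
    (φ : G ≃* ↥(alternatingGroup (Fin n)))
    (hU : ∀ T : Sylow 3 G, ∃! M : Subgroup G, IsCoatom M ∧ (T : Subgroup G) ≤ M) :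
    n = 6 ∨ n = 9 ∨ ∃ a, 2 ≤ a ∧ n = 3 ^ a + 1 := by
  classical
  rcases shape n hn with ⟨t, rfl⟩ | ⟨t, s, hst, rfl⟩ | ⟨a, b, c, ha, hb, hc, rfl, hv⟩
  · right; left
    rcases Nat.lt_or_ge t 3 with h | h
    · interval_cases t <;> simp_all
    exfalso
    obtain ⟨u, rfl⟩ : ∃ u, t = u + 2 := ⟨t - 2, by omega⟩
    have hu : 1 < 3 ^ u := Nat.one_lt_pow (by omega) (by norm_num)
    let β := Fin (3 ^ u) × ZMod 3
    let e : Fin (3 ^ (u + 2)) ≃ β × ZMod 3 :=
      (Fintype.equivFinOfCardEq (by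
        simp only [β, Fintype.card_prod, Fintype.card_fin, ZMod.card, pow_succ])).symm
    obtain ⟨P⟩ : Nonempty (Sylow 3 (Perm (Fin (3 ^ u)))) := inferInstance
    obtain ⟨T, hT⟩ := not_uniq_triples (φ.trans (Equiv.altCongrHom e)) (Prod.fst : β → Fin (3 ^ u))
      (wreath (P : Subgroup (Perm (Fin (3 ^ u)))))
      (fun g hg x y => by
        obtain ⟨π, -, h⟩ := fst_apply hg
        simp only [h]
        exact π.injective.eq_iff)
      (by
        haveI : Fact (Nat.Prime 3) := ⟨Nat.prime_three⟩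
        rw [card_wreath, P.card_eq_multiplicity, Nat.card_perm, Nat.card_fin, Fintype.card_fin,
          Fintype.card_prod, Fintype.card_fin, ZMod.card, mul_comm (3 ^ u) 3, vFac_three_mul,
          pow_add, Nat.factorization_def _ Nat.prime_three]
        rfl)
      (⟨0, by omega⟩, 0) (⟨0, by omega⟩, 1) (⟨1, hu⟩, 0)
      (fun e => zero_ne_one (α := ZMod 3) (congrArg Prod.snd e)) rfl (by simp [Fin.ext_iff])
    exact hT (hU T)
  · rcases Nat.eq_zero_or_pos s with rfl | hs
    · right; right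
      refine ⟨t, ?_, by simp⟩
      by_contra h
      interval_cases t <;> simp at hn
    rcases Nat.lt_or_ge t 2 with h | h
    · left
      have : t = 1 := by omega
      have : s = 1 := by omega
      subst_vars
      rfl
    exfalso
    obtain ⟨u, rfl⟩ : ∃ u, t = u + 1 := ⟨t - 1, by omega⟩
    obtain ⟨w, rfl⟩ : ∃ w, s = w + 1 := ⟨s - 1, by omega⟩
    have hu : 1 < 3 ^ u := Nat.one_lt_pow (by omega) (by norm_num)
    let β := Fin (3 ^ u) ⊕ Fin (3 ^ w)
    let e : Fin (3 ^ (u + 1) + 3 ^ (w + 1)) ≃ β × ZMod 3 :=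
      (Fintype.equivFinOfCardEq (by
        simp only [β, Fintype.card_prod, Fintype.card_sum, Fintype.card_fin, ZMod.card, pow_succ]
        ring)).symm
    obtain ⟨R, hR, hR'⟩ := exists_sum_sylow (Fin (3 ^ u)) (Fin (3 ^ w))
    obtain ⟨T, hT⟩ := not_uniq_triples (φ.trans (Equiv.altCongrHom e)) (Sum.isLeft : β → Bool) R
      (fun g hg => mem_pres_of_forall (hR' g hg))
      (by
        rw [hR, Fintype.card_sum, Fintype.card_fin, Fintype.card_fin]
        have hwu : 3 ^ w ≤ 3 ^ u := Nat.pow_le_pow_right (by norm_num) (by omega)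
        have := card_pow_three u
        rw [vFac_pow_add u _ (by omega)])
      (Sum.inl ⟨0, by omega⟩) (Sum.inl ⟨1, hu⟩) (Sum.inr ⟨0, by positivity⟩) (fun e => absurd (congrArg Fin.val (Sum.inl_injective e)) (by simp)) rfl (by simp)
    exact hT (hU T)
  · exfalso
    let β := Fin a ⊕ Fin b ⊕ Fin c
    let e : Fin (a + b + c) ≃ β :=
      (Fintype.equivFinOfCardEq (by simp [β, add_assoc])).symm
    obtain ⟨Q, hQ, hQ'⟩ := exists_sum_sylow_three (Fin a) (Fin b) (Fin c)
    let f₁ : β → Bool := Sum.isLeft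
    let f₂ : β → Bool := fun x => Sum.elim (fun _ => false) Sum.isLeft x
    let c0 : β := Sum.inr (Sum.inr ⟨0, by omega⟩)
    let c1 : β := Sum.inr (Sum.inr ⟨1, by omega⟩)
    let c2 : β := Sum.inr (Sum.inr ⟨2, by omega⟩)
    obtain ⟨T, hT⟩ := not_uniq (φ.trans (Equiv.altCongrHom e)) f₁ f₂ Q
      (by simp [β]; omega)
      (by rw [hQ]; simp [β, ← add_assoc, hv])
      (fun g hg => mem_pres_of_forall fun x => (hQ' g hg x).1)
      (fun g hg => mem_pres_of_forall fun x => (hQ' g hg x).2)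
      (pres_ne_top (x := c0) (y := c1) (z := Sum.inl ⟨0, ha⟩) (fun e => absurd (congrArg Fin.val (Sum.inr_injective (Sum.inr_injective e))) (by simp)) rfl
        (by simp [c0, f₁]))
      (pres_ne_top (x := c0) (y := c1) (z := Sum.inr (Sum.inl ⟨0, hb⟩)) (fun e => absurd (congrArg Fin.val (Sum.inr_injective (Sum.inr_injective e))) (by simp)) rfl
        (by simp [c0, f₂]))
      (by
        intro x y
        have hc01 : c0 ≠ c1 :=
          fun e => absurd (congrArg Fin.val (Sum.inr_injective (Sum.inr_injective e))) (by simp)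
        have hc02 : c0 ≠ c2 :=
          fun e => absurd (congrArg Fin.val (Sum.inr_injective (Sum.inr_injective e))) (by simp)
        have hc12 : c1 ≠ c2 :=
          fun e => absurd (congrArg Fin.val (Sum.inr_injective (Sum.inr_injective e))) (by simp)
        set A := alternatingGroup β
        set J := (pres f₁).subgroupOf A ⊔ (pres f₂).subgroupOf A
        have hH1 : ∀ g ∈ pres f₁, g ∈ A → g ∈ J.map A.subtype :=
          fun g hg hgA => ⟨⟨g, hgA⟩, Subgroup.mem_sup_left hg, rfl⟩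
        have hH2 : ∀ g ∈ pres f₂, g ∈ A → g ∈ J.map A.subtype :=
          fun g hg hgA => ⟨⟨g, hgA⟩, Subgroup.mem_sup_right hg, rfl⟩
        have key : ∀ z : β, Rel (J.map A.subtype) c0 z := by
          intro z
          rcases eq_or_ne c0 z with rfl | h0
          · exact Rel.refl _
          rcases eq_or_ne c1 z with rfl | h1
          · exact rel_of_fibre hH1 hc01 hc02 hc12 rfl rfl
          rcases z with z | z | z
          · exact rel_of_fibre hH2 (c := c1) h0 hc01 h1.symm rfl rfl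
          · exact rel_of_fibre hH1 (c := c1) h0 hc01 h1.symm rfl rfl
          · exact rel_of_fibre hH1 (c := c1) h0 hc01 h1.symm rfl rfl
        exact (key x).symm.trans (key y))
    exact hT (hU T)

end CfsgLib.AltSylowThree
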